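import Groth.Agent.Fixpt.H907.Reduce
import Groth.Agent.Fixpt.H34.RatTrace

/-!
# Fulton's trace formula, given that `cohLef` is a trace function
-/

set_option autoImplicit false
universe u v

open CategoryTheory CategoryTheory.Limits AlgebraicGeometry Opposite TopologicalSpace
attribute [local instance] FixPt.fiberModule

namespace Groth.Agent.Fixpt.H907.Assemble

open Groth.Agent.FormalB Groth.Agent.FormalB.TrKQuot
open Groth.Agent.Fixpt.H907.Semi Groth.Agent.Fixpt.H907.Reduce Groth.Agent.Fixpt.H907.CaseOne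
open Groth.Agent.Fixpt.H34

/-- Fulton's trace formula for coherent modules with a `q`-semilinear endomorphism. -/
theorem fulton_of_traceFn
    (k : Type u) [Field k] [Fintype k] (X : Scheme.{u}) [X.Over (Spec (CommRingCat.of k))]
    [IsProper (X ↘ Spec (CommRingCat.of k))] (M : X.Modules) (hM : Coh.IsCoh M)
    (T : TraceFn X (Fintype.card k) k)
    (hT : ∀ (N : X.Modules) (_ : Coh.IsCoh N) (ψ : Coh.toAb N ⟶ Coh.toAb N), IsSemi (Fintype.card k) ψ →
      T.T N ψ = FixPt.cohLef k X N ψ)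
    (φ : Coh.toAb M ⟶ Coh.toAb M) (hφ : IsSemi (Fintype.card k) φ)
    (g : ∀ s : FixPt.RatPt k X,
      FixPt.fiber M (s.1 (IsLocalRing.closedPoint k)) →ₗ[k] FixPt.fiber M (s.1 (IsLocalRing.closedPoint k)))
    (hg : ∀ (s : FixPt.RatPt k X) (v : M.presheaf.stalk (s.1 (IsLocalRing.closedPoint k))),
      g s (FixPt.fiberMk M _ v) =
        FixPt.fiberMk M _ ((TopCat.Presheaf.stalkFunctor AddCommGrpCat.{u} (s.1 (IsLocalRing.closedPoint k))).map φ.hom v)) :
    FixPt.cohLef k X M φ = ∑ᶠ s : FixPt.RatPt k X, LinearMap.trace k _ (g s) := by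
  have hX : IsNoetherian X := by
    have h1 : IsLocallyNoetherian X := LocallyOfFiniteType.isLocallyNoetherian (X ↘ Spec (CommRingCat.of k))
    have h2 : CompactSpace X := QuasiCompact.compactSpace_of_compactSpace (X ↘ Spec (CommRingCat.of k))
    exact {}
  obtain ⟨ψ, hψ, hψs⟩ := exists_quot (Fintype.card_pos) (RatTrace.ratIdeal k X) hM.1 φ hφ
  have h1 := T_eq_quot_ratPts T (RatTrace.ratIdeal k X) (RatTrace.coe_support_ratIdeal k X) hM φ hφ ψ hψ
  rw [hT M hM φ hφ, hT _ (isCoh_kq _ hM) ψ hψs] at h1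
  rw [h1]
  exact RatTrace.cohLef_eq_finsum (isKQuot_kπ (RatTrace.ratIdeal k X) hM.1) hM φ ψ hψ.symm g hg

end Groth.Agent.Fixpt.H907.Assemble
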