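import Groth.Agent.Fixpt.H907.Assemble
import Groth.Agent.Fixpt.H123.CohTrace

/-!
# Fulton's trace formula for coherent modules with a `q`-semilinear endomorphism

`fulton`: let `k` be a finite field with `q` elements, `X` a proper scheme over `k`, `M` a coherent
`O_X`-module and `φ` a `q`-semilinear endomorphism of `M`.  Then the alternating sum of the traces of
`φ` on `H^i(X, M)` is the sum over the `k`-rational points `x` of `X` of the trace of `φ` on the fibre
`M_x / m_x M_x`.  (No smoothness, no local freeness.)
-/

set_option autoImplicit false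
universe u v

open CategoryTheory CategoryTheory.Limits AlgebraicGeometry Opposite TopologicalSpace
attribute [local instance] FixPt.fiberModule

namespace Groth.Agent.Fixpt.H907.Fulton

open Groth.Agent.Fixpt.H907.Semi

/-- Fulton's trace formula: `k` a finite field, `X` proper over `k`, `M` coherent, `φ` a
`q`-semilinear endomorphism. -/
theorem fulton
    (k : Type u) [Field k] [Fintype k] (X : Scheme.{u}) [X.Over (Spec (CommRingCat.of k))]
    [IsProper (X ↘ Spec (CommRingCat.of k))] (M : X.Modules) (hM : Coh.IsCoh M)
    (φ : Coh.toAb M ⟶ Coh.toAb M) (hφ : IsSemi (Fintype.card k) φ)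
    (g : ∀ s : FixPt.RatPt k X,
      FixPt.fiber M (s.1 (IsLocalRing.closedPoint k)) →ₗ[k] FixPt.fiber M (s.1 (IsLocalRing.closedPoint k)))
    (hg : ∀ (s : FixPt.RatPt k X) (v : M.presheaf.stalk (s.1 (IsLocalRing.closedPoint k))),
      g s (FixPt.fiberMk M _ v) =
        FixPt.fiberMk M _ ((TopCat.Presheaf.stalkFunctor AddCommGrpCat.{u} (s.1 (IsLocalRing.closedPoint k))).map φ.hom v)) :
    FixPt.cohLef k X M φ = ∑ᶠ s : FixPt.RatPt k X, LinearMap.trace k _ (g s) :=
  Assemble.fulton_of_traceFn k X M hM (H123.CohTrace.cohTraceFn k X (fun c => FiniteField.pow_card c))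
    (fun _ _ _ _ => rfl) φ hφ g hg

end Groth.Agent.Fixpt.H907.Fulton
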